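import Cfsg.Agent.H877.SK.B.Ctx
import Cfsg.Agent.CpAut.TwoInnerB

/-!
# S3010, the row of the Baby Monster: the reduction to the classes `2A`, `2B`, `2D` (helper877)

`exists_mem` : `V` contains an involution of the class of `t`, `q a` or `q b` (some element of `V#` has an involutory lift in
the double cover `2.B`).
-/

set_option autoImplicit false
set_option maxRecDepth 100000

universe u

open Subgroup

namespace Cfsg.Agent.H877.SK.B

open Cfsg Cfsg.Agent.H282.SK Cfsg.Agent.R01.Lifts

section abstr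

variable {B Y : Type*} [Group B] [Group Y] {q : B →* Y} {z : B}

theorem anti (hq : Ext q z) {k l : B} (hk : k * k = z) (hl : l * l = z) (hkl : k * l * (k * l) = z) :
    l * k = k * l * z := by
  have hk' : k⁻¹ = k * z := by
    rw [inv_eq_iff_mul_eq_one, ← mul_assoc, hk, hq.zz]
  have hl' : l⁻¹ = l * z := by
    rw [inv_eq_iff_mul_eq_one, ← mul_assoc, hl, hq.zz]
  calc l * k = k⁻¹ * (k * l * (k * l)) * l⁻¹ := by group
    _ = k * z * z * (l * z) := by rw [hkl, hk', hl']
    _ = k * (z * z) * (l * z) := by group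
    _ = k * l * z := by rw [hq.zz]; group

/-- **An elementary abelian group of order `≥ 8` contains an element with an involutory lift.** -/
theorem exists_lift (hq : Ext q z) {V : Subgroup Y} (hc : ∀ v ∈ V, ∀ w ∈ V, v * w = w * v) (hs : ∀ v ∈ V, v * v = 1)
    (h8 : 8 ≤ Nat.card V) : ∃ k : B, q k ∈ V ∧ q k ≠ 1 ∧ k * k = 1 := by
  classical
  by_contra hcon
  push Not at hcon
  have hk : ∀ k : B, q k ∈ V → q k ≠ 1 → k * k = z := by
    intro k h1 h2
    have h3 : q (k * k) = 1 := by rw [map_mul]; exact hs _ h1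
    exact ((hq.ker _).1 h3).resolve_left (hcon k h1 h2)
  have hfin : Finite V := Nat.finite_of_card_ne_zero (by omega)
  -- three independent elements
  have pick : ∀ S : Finset Y, S.card ≤ 7 → ∃ v ∈ V, v ∉ S := by
    intro S hS
    by_contra hn
    push Not at hn
    have h1 : Nat.card V ≤ S.card := by
      have h2 : (V : Set Y) ⊆ (S : Set Y) := fun x hx => hn x hx
      have h3 := Set.ncard_le_ncard h2 S.finite_toSet
      rw [Set.ncard_coe_finset] at h3
      have h4 : Nat.card V = (V : Set Y).ncard := Nat.card_coe_set_eq _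
      rw [h4]
      exact h3
    omega
  obtain ⟨u, hu, hu1⟩ := pick {1} (by simp)
  obtain ⟨v, hv, hv1⟩ := pick {1, u} ((Finset.card_le_two).trans (by norm_num))
  obtain ⟨w, hw, hw1⟩ := pick {1, u, v, u * v} ((Finset.card_le_four).trans (by norm_num))
  simp only [Finset.mem_insert, Finset.mem_singleton, not_or] at hu1 hv1 hw1
  obtain ⟨k, rfl⟩ := hq.surj u
  obtain ⟨l, rfl⟩ := hq.surj v
  obtain ⟨m, rfl⟩ := hq.surj w
  have hi : ∀ x ∈ V, ∀ y, x * y = 1 → y = x := fun x hx y h => by
    have h1 : x⁻¹ = x := inv_eq_of_mul_eq_one_left (hs x hx)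
    rw [← h1]
    exact (inv_eq_of_mul_eq_one_right h).symm
  have e1 := hk k hu hu1
  have e2 := hk l hv hv1.1
  have e3 := hk m hw hw1.1
  have e4 : k * l * (k * l) = z := hk (k * l) (by rw [map_mul]; exact mul_mem hu hv) (by
    rw [map_mul]
    exact fun h => hv1.2 (hi _ hu _ h))
  have e5 : k * m * (k * m) = z := hk (k * m) (by rw [map_mul]; exact mul_mem hu hw) (by
    rw [map_mul]
    exact fun h => hw1.2.1 (hi _ hu _ h))
  have e6 : l * m * (l * m) = z := hk (l * m) (by rw [map_mul]; exact mul_mem hv hw) (by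
    rw [map_mul]
    exact fun h => hw1.2.2.1 (hi _ hv _ h))
  have e7 : k * l * m * (k * l * m) = z := hk (k * l * m) (by
    rw [map_mul, map_mul]; exact mul_mem (mul_mem hu hv) hw) (by
    rw [map_mul, map_mul]
    exact fun h => hw1.2.2.2 (hi _ (mul_mem hu hv) _ h))
  have a1 := anti hq e1 e3 e5
  have a2 := anti hq e2 e3 e6
  have a3 := anti hq e4 e3 e7
  have a4 : m * (k * l) = k * l * m := by
    calc m * (k * l) = m * k * l := by group
      _ = k * m * z * l := by rw [a1]
      _ = k * m * (l * z) := by rw [hq.comm l]; group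
      _ = k * (m * l) * z := by group
      _ = k * (l * m * z) * z := by rw [a2]
      _ = k * l * m * (z * z) := by group
      _ = k * l * m := by rw [hq.zz, mul_one]
  rw [a4] at a3
  exact hq.ne_mul _ a3

end abstr

instance finX : Finite X := CTwoTab.BInst.finite_B

variable {q : ↥BB' →* X} {t : X} {M₁ : Subgroup X} {a b : ↥BB'}

theorem Ctx.cls' (C : Ctx q t M₁ a b) {u : ↥BB'} (h1 : q u ≠ 1) (h2 : u * u = 1) :
    IsConj t (q u) ∨ IsConj a u ∨ IsConj (τ * a) u ∨ IsConj b u := by
  refine C.cls u h2 ?_ ?_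
  · rintro rfl
    exact h1 (map_one q)
  · intro h
    apply h1
    rw [h, C.hq.mapz]

theorem Ctx.conj_q (C : Ctx q t M₁ a b) {u : ↥BB'} (h1 : q u ≠ 1) (h2 : u * u = 1) :
    IsConj t (q u) ∨ IsConj (q a) (q u) ∨ IsConj (q b) (q u) := by
  rcases C.cls' h1 h2 with h | h | h | h
  · exact Or.inl h
  · exact Or.inr (Or.inl (q.map_isConj h))
  · right; left
    have h3 := q.map_isConj h
    rwa [map_mul, C.hq.mapz, one_mul] at h3
  · exact Or.inr (Or.inr (q.map_isConj h))

/-- **`V` meets the class of `t`, `q a` or `q b`.** -/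
theorem exists_mem (C : Ctx q t M₁ a b) {V : Subgroup X} (h : Cx V (⊤ : Subgroup X)) :
    ∃ v ∈ V, IsConj t v ∨ IsConj (q a) v ∨ IsConj (q b) v := by
  obtain ⟨k, h1, h2, h3⟩ := exists_lift C.hq (fun v hv w hw => h.comm hv hw) (fun v hv => h.sq hv) h.card
  exact ⟨q k, h1, C.conj_q h2 h3⟩

open Cfsg.Agent.H738.SK in
/-- **The reduction.** -/
theorem dead_of (C : Ctx q t M₁ a b) (hA : Dead (⊤ : Subgroup X) t) (hB : Dead (⊤ : Subgroup X) (q a))
    (hD : Dead (⊤ : Subgroup X) (q b)) : DeadS.{u} (fun K _ => Cfsg.Spor.IsoB K) := by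
  refine @deadS_of_inner X _ _ (fun K _ => Cfsg.Spor.IsoB K) (fun K _ h => h) CpAut.TwoInner.inner_b
    (fun V h => ?_)
  obtain ⟨v, hv, h1⟩ := exists_mem C h
  rcases h1 with h1 | h1 | h1
  · exact hA.of_isConj h1 V h hv
  · exact hB.of_isConj h1 V h hv
  · exact hD.of_isConj h1 V h hv

end Cfsg.Agent.H877.SK.B
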